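import Mathlib
import Cfsg.Agent.Lib.Pronorm.Basic
import Cfsg.Agent.Lib.Twist.Inst
import Cfsg.Agent.Lib.ClSys.SL
import Cfsg.Agent.Lib.Unitary.Order

/-!
`SL_n(F)` and `SU_n(q)` in characteristic two as (twisted) groups with root elements.
-/

set_option autoImplicit false

namespace CfsgLib.Pronorm

open Subgroup Cfsg CfsgLib.SolvStruct CfsgLib.RGD CfsgLib.Twist CfsgLib.ClSys Matrix MatrixGroups

universe u

section Id

variable {ι κ : Type} [Fintype κ] [DecidableEq κ] {Φ : RootSys ι κ}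
  {F : Type*} [Field F] {G : Type u} [Group G] (S : StSys Φ F G)

/-- the trivial twist -/
def twId : Tw S κ where
  ρ := 1
  π := 1
  orb := id
  ρ_simple _ := rfl
  ρ_refl _ _ := rfl
  orb_π _ := rfl
  orb_trans _ _ h := ⟨0, h⟩
  orb_surj := Function.surjective_id
  σ := id
  f _ := RingHom.id F
  σ_mul _ _ _ _ := rfl
  σ_pos _ _ := rfl
  σ_neg _ _ := rfl

variable {S}

theorem isTw_id (hS : Sharp S) : IsTw (twId S) S.grp where
  sharp := hS
  le_fix _ hg := ⟨hg, rfl⟩
  posJ_le _ _ hg := hg.2.1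
  exists_neg b := ⟨S.x (Φ.neg (Φ.simple b)) 1, x_mem_grp S _ _, x_mem_UU S
    (by exact ⟨Φ.neg_neg_simple b, Φ.inSub_neg_iff.2 (Φ.inSub_simple_iff.2 rfl)⟩) _,
    fun h => one_ne_zero (hS.x_eq_zero _ h)⟩

end Id

variable {F : Type u} [Field F] {n : ℕ}

theorem sharp_slSys (hn : ∀ c : F, c ^ n = 1 → c = 1) : Sharp (slSys n F) := by
  refine sharp_of_nondeg slSys_nondeg (fun i c hc s t => slSys_hRule i s c t hc) fun h hh e => ?_
  have h1 : ∀ i, h (loA i) (loA i) = h (hiA i) (hiA i) := by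
    intro i
    have := congrArg (fun g : SpecialLinearGroup (Fin n) F => g.1 (loA i) (hiA i))
      (mul_inv_eq_iff_eq_mul.1 (e i 1))
    simpa [slSys_x_coe, rootA_simple, simpleA, mul_add, add_mul] using this
  have h2 : ∀ (k : ℕ) (hk : k < n), h ⟨k, hk⟩ ⟨k, hk⟩ = h ⟨0, by omega⟩ ⟨0, by omega⟩ := by
    intro k
    induction k with
    | zero => exact fun _ => rfl
    | succ k ih => exact fun hk => (h1 ⟨k, by omega⟩).symm.trans (ih (by omega))
  ext i j
  by_cases hij : i = j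
  · subst hij
    have h3 : h.1 = diagonal fun _ => h i i := by
      ext a b
      by_cases hab : a = b
      · subst hab; rw [diagonal_apply_eq]; exact (h2 a.1 a.2).trans (h2 i.1 i.2).symm
      · rw [diagonal_apply_ne _ hab]; exact mem_slSys_H.1 hh a b hab
    have h4 := h.2
    rw [h3, det_diagonal] at h4
    simpa using hn _ (by simpa using h4)
  · simpa [one_apply_ne hij] using mem_slSys_H.1 hh i j hij

theorem eq_one_of_pow_two_pow [CharP F 2] {w : ℕ} (c : F) (h : c ^ 2 ^ w = 1) : c = 1 := by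
  have : (c - 1) ^ 2 ^ w = 0 := by rw [sub_pow_char_pow, h, one_pow, sub_self]
  exact sub_eq_zero.1 (pow_eq_zero_iff (by positivity) |>.1 this)

theorem sylPron_sl_even [Finite F] [CharP F 2] (w : ℕ) : SylPron 2 SL(2 ^ w, F) :=
  sylPron_of_surjective (slSys (2 ^ w) F).grp.subtype (fun g => ⟨⟨g, slSys_grp (F := F) ▸ mem_top g⟩, rfl⟩)
    (sylPron_of_isTw (isTw_id (sharp_slSys eq_one_of_pow_two_pow)) 2)

/-- the graph symmetry on the roots -/
def revA (r : OffD n) : OffD n := ⟨(r.1.2.rev, r.1.1.rev), fun h => r.2 (Fin.rev_injective h).symm⟩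

theorem rev_hiA (i : Fin (n - 1)) : (hiA i).rev = loA i.rev := Fin.ext (by simp [hiA, loA]; omega)

theorem rev_loA (i : Fin (n - 1)) : (loA i).rev = hiA i.rev := Fin.ext (by simp [hiA, loA]; omega)

/-- the twisting map `g ↦ J (g^φ)⁻ᵀ J` -/
def unitMap (φ : F →+* F) (g : SL(n, F)) : SL(n, F) :=
  ⟨((g⁻¹.1.map φ)ᵀ).submatrix Fin.rev Fin.rev, by
    rw [show (Fin.rev : Fin n → Fin n) = Fin.revPerm from rfl, det_submatrix_equiv_self, det_transpose,
      ← RingHom.mapMatrix_apply, ← RingHom.map_det, g⁻¹.2, map_one]⟩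

theorem coe_unitMap (φ : F →+* F) (g : SL(n, F)) : (unitMap φ g : Matrix (Fin n) (Fin n) F) =
    (((g⁻¹ : SL(n, F)) : Matrix (Fin n) (Fin n) F).map φ)ᵀ.submatrix Fin.rev Fin.rev := rfl

theorem unitMap_mul (φ : F →+* F) (g h : SL(n, F)) : unitMap φ (g * h) = unitMap φ g * unitMap φ h := by
  apply Subtype.ext
  change ((((g * h)⁻¹ : SL(n, F)).1.map φ)ᵀ).submatrix Fin.rev Fin.rev = _ * _
  rw [_root_.mul_inv_rev]
  change (((h⁻¹.1 * g⁻¹.1).map φ)ᵀ).submatrix Fin.rev Fin.rev = _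
  rw [Matrix.map_mul, transpose_mul]
  exact (submatrix_mul_equiv _ _ _ Fin.revPerm _).symm

theorem unitMap_x [CharP F 2] (φ : F →+* F) (r : OffD n) (t : F) :
    unitMap φ ((slSys n F).x r t) = (slSys n F).x (revA r) (φ t) := by
  apply Subtype.ext
  rw [coe_unitMap, ← StSys.x_neg, CharTwo.neg_eq]
  simp only [slSys_x_coe]
  ext i j
  simp only [submatrix_apply, transpose_apply, map_apply, Matrix.add_apply, one_apply, single_apply, revA, map_add,
    apply_ite φ, map_one, map_zero, Fin.rev_inj, Fin.rev_eq_iff]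
  congr 1
  · simp only [Fin.rev_rev, eq_comm]
  · simp only [and_comm]

variable (n) in
/-- the unitary twist in characteristic two -/
def twU [CharP F 2] (φ : F →+* F) :
    Tw (slSys n F) (Quotient (Equiv.Perm.SameCycle.setoid (Fin.revPerm : Equiv.Perm (Fin (n - 1))))) where
  ρ := Function.Involutive.toPerm revA fun r => by simp [revA]
  π := Fin.revPerm
  orb := Quotient.mk _
  ρ_simple i := Subtype.ext (Prod.ext (rev_hiA i) (rev_loA i))
  ρ_refl i r := by
    have : ∀ a : Fin n, (Equiv.swap (loA i) (hiA i) a).rev = Equiv.swap (loA i.rev) (hiA i.rev) a.rev :=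
      fun a => by rw [← rev_hiA, ← rev_loA, Equiv.swap_comm, Fin.rev_injective.swap_apply, Equiv.swap_comm]
    exact Subtype.ext (Prod.ext (this _) (this _))
  orb_π i := Quotient.sound (Equiv.Perm.SameCycle.refl _ i).apply_left
  orb_trans i j h := by
    obtain ⟨k, -, hk⟩ := Equiv.Perm.SameCycle.exists_pow_eq' (Quotient.exact h)
    exact ⟨k, hk⟩
  orb_surj := Quotient.mk_surjective
  σ := unitMap φ
  f _ := φ
  σ_mul g _ h _ := unitMap_mul φ g h
  σ_pos i t := (unitMap_x φ _ t).trans (congrArg (fun r => (slSys n F).x r (φ t))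
    (by exact Subtype.ext (Prod.ext (rev_hiA i) (rev_loA i))))
  σ_neg i t := (unitMap_x φ _ t).trans (congrArg (fun r => (slSys n F).x r (φ t))
    (by exact Subtype.ext (Prod.ext (rev_loA i) (rev_hiA i))))

theorem isTw_twU [CharP F 2] (φ : F →+* F) (hn : Even n) (hS : Sharp (slSys n F)) :
    IsTw (twU n φ) (twU n φ).Fix where
  sharp := hS
  le_fix := le_rfl
  posJ_le _ := inf_le_right
  exists_neg b := by
    obtain ⟨i, rfl⟩ := Quotient.mk_surjective b
    have h1 : ∀ j, j ∈ (twU n φ).J (Quotient.mk _ i) →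
        (slSys n F).x ((rootA n).neg ((rootA n).simple j)) 1 ∈
          (slSys n F).UU (negJ (rootA n) ((twU n φ).J (Quotient.mk _ i))) := fun j hj =>
      x_mem_UU _ (by exact ⟨(rootA n).neg_neg_simple j,
        (rootA n).inSub_neg_iff.2 ((rootA n).inSub_simple_iff.2 hj)⟩) _
    have h2 : ∀ j : Fin (n - 1), unitMap φ ((slSys n F).x ((rootA n).neg ((rootA n).simple j)) 1) =
        (slSys n F).x ((rootA n).neg ((rootA n).simple j.rev)) 1 := fun j => by
      conv_rhs => rw [← map_one φ]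
      exact (twU n φ).σ_neg j 1
    by_cases hi : i.rev = i
    · exact ⟨_, ⟨x_mem_grp _ _ _, (h2 i).trans (by rw [hi])⟩, h1 i rfl,
        fun h => one_ne_zero (hS.x_eq_zero _ h)⟩
    refine ⟨_, ⟨slSys_grp (F := F) ▸ mem_top _, ?_⟩, mul_mem (h1 i rfl) (h1 i.rev ((twU n φ).orb_π i)), fun h => ?_⟩
    · change unitMap φ _ = _
      rw [unitMap_mul, h2, h2, Fin.rev_rev]
      obtain ⟨k, hk⟩ := hn
      refine commute_transvection (Subtype.prop (negA _)) (Subtype.prop (negA _)) ?_ ?_ 1 1 <;>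
        simp [rootA_neg, rootA_simple, negA, simpleA, loA, hiA, Fin.ext_iff] <;> omega
    · rw [mul_eq_one_iff_eq_inv, ← StSys.x_neg] at h
      exact one_ne_zero (hS.eq_zero_of_x_eq (fun e => hi ((rootA n).simple_injective
        ((rootA n).neg_injective e)).symm) h)

open CfsgLib.Unitary in
theorem sylPron_su_even [Fintype F] [CharP F 2] {q : ℕ} (hF : Fintype.card F = q ^ 2) {w : ℕ} (hw : 1 ≤ w) :
    SylPron 2 (SU (2 ^ w) F q) := by
  have hT := isTw_twU (conj hF) ((Nat.even_pow.2 ⟨even_two, by omega⟩ : Even (2 ^ w)))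
    (sharp_slSys eq_one_of_pow_two_pow)
  generalize 2 ^ w = n at hT
  obtain ⟨z, hz1, hz⟩ := exists_norm_one_ne_one hF
  have hz' : z * conj hF z = 1 := by rw [conj_apply, ← pow_succ', hz]
  have ht : z + conj hF z ≠ 0 := fun h => hz1 (eq_one_of_pow_two_pow (w := 1) z (by
    rw [← hz', eq_neg_of_add_eq_zero_right h, CharTwo.neg_eq, pow_one, sq]))
  obtain ⟨a, ha⟩ := exists_norm_eq hF (μ := (z + conj hF z)⁻¹) (by
    rw [← conj_apply hF, map_inv₀, map_add, conj_conj, add_comm])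
  have ha' : a * conj hF a * (z + conj hF z) = 1 := by
    rw [conj_apply hF a, ← pow_succ', ha, inv_mul_cancel₀ ht]
  set J : Matrix (Fin n) (Fin n) F := (1 : Matrix (Fin n) (Fin n) F).submatrix id Fin.rev with hJ
  have hJ1 : ∀ A : Matrix (Fin n) (Fin n) F, A * J = A.submatrix id Fin.rev := fun A =>
    mul_submatrix_one (Equiv.refl _) Fin.rev A
  have hJt : Jᵀ = J := by
    ext i j
    simp only [hJ, transpose_apply, submatrix_apply, one_apply, id, eq_comm (a := j), Fin.rev_eq_iff]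
  have hJ2 : ∀ A : Matrix (Fin n) (Fin n) F, J * A = A.submatrix Fin.rev id := fun A => by
    rw [← transpose_inj, transpose_mul, hJt, hJ1, transpose_submatrix]
  have hJJ : J * J = 1 := by rw [hJ1, hJ]; ext i j; exact congrArg ((1 : Matrix _ _ F) i) j.rev_rev
  obtain ⟨s, hs⟩ : ∃ s : Matrix (Fin n) (Fin n) F → Matrix (Fin n) (Fin n) F,
    ∀ A, s A = (A.map (conj hF))ᵀ := ⟨_, fun _ => rfl⟩
  have sm : ∀ A B, s (A * B) = s B * s A := fun A B => by rw [hs, hs, hs, Matrix.map_mul, transpose_mul]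
  have s1 : s 1 = 1 := by rw [hs, Matrix.map_one _ (map_zero _) (map_one _), transpose_one]
  set P : Matrix (Fin n) (Fin n) F := a • 1 + (a * z) • J with hP
  have hPP : s P * P = J := by
    have : s P = conj hF a • 1 + (conj hF a * conj hF z) • J := by
      conv_rhs => rw [← hJt]
      ext i j; simp [hs, hP, hJ, one_apply, apply_ite (conj hF), eq_comm]
    rw [this, hP]
    simp only [add_mul, mul_add, smul_mul_assoc, mul_smul_comm, one_mul, mul_one, hJJ, smul_smul, smul_add]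
    have h2 : (2 : F) = 0 := CharTwo.two_eq_zero
    linear_combination (norm := module) ha' • J + (a * conj hF a) • hz' • (1 : Matrix (Fin n) (Fin n) F) +
      (a * conj hF a) • h2 • (1 : Matrix (Fin n) (Fin n) F)
  obtain ⟨Q, hQ⟩ : ∃ Q, Q * P = 1 := ⟨J * s P, by rw [mul_assoc, hPP, hJJ]⟩
  have hQ' := mul_eq_one_comm.1 hQ
  have hdet : ∀ {A B : Matrix (Fin n) (Fin n) F}, B * A = 1 → ∀ g : SL(n, F), (A * g.1 * B).det = 1 :=
    fun h g => by rw [det_mul_comm, ← mul_assoc, h, one_mul, g.2]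
  have hfix : ∀ g : SL(n, F), g ∈ (twU n (conj hF)).Fix ↔ s g.1 * J * g.1 = J := by
    intro g
    have h1 : (unitMap (conj hF) g).1 = J * s g⁻¹.1 * J := by rw [hJ1, hJ2, hs]; rfl
    have h2 : s g.1 * s g⁻¹.1 = 1 := by
      rw [← sm, ← s1]; exact congrArg (fun x : SL(n, F) => s x.1) (inv_mul_cancel g)
    refine ⟨fun h => ?_, fun h => ⟨slSys_grp (F := F) ▸ mem_top _, Subtype.ext ?_⟩⟩
    · have h3 : (unitMap (conj hF) g).1 = g.1 := congrArg Subtype.val h.2
      conv_lhs => enter [2]; rw [← h3, h1]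
      rw [← mul_assoc, ← mul_assoc, mul_assoc _ J J, hJJ, mul_one, h2, one_mul]
    · change (unitMap (conj hF) g).1 = g.1
      rw [h1, mul_assoc]
      conv_lhs => enter [2, 2]; rw [← h]
      rw [← mul_assoc (s _), ← mul_assoc (s _), mul_eq_one_comm.1 h2, one_mul, ← mul_assoc, hJJ, one_mul]
  have hsu : ∀ g : SL(n, F), g ∈ SU n F q ↔ s g.1 * g.1 = 1 := fun g => by
    rw [mem_SU_iff hF, ← transpose_inj, transpose_mul, transpose_transpose, transpose_one, hs]
  refine sylPron_of_surjective (G := (twU n (conj hF)).Fix) (MonoidHom.mk' (fun g => ⟨⟨P * g.1.1 * Q, hdet hQ _⟩,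
    (hsu _).2 ?_⟩) fun g h => Subtype.ext (Subtype.ext ?_)) (fun g => ⟨⟨⟨Q * g.1.1 * P, hdet hQ' _⟩,
      (hfix _).2 ?_⟩, Subtype.ext (Subtype.ext ?_)⟩) (sylPron_of_isTw hT 2)
  · have := (hfix _).1 g.2
    calc s (P * g.1.1 * Q) * (P * g.1.1 * Q) = s Q * (s g.1.1 * (s P * P) * g.1.1) * Q := by
          simp only [sm, mul_assoc]
      _ = s (P * Q) * (P * Q) := by rw [hPP, this, ← hPP]; simp only [sm, mul_assoc]
      _ = 1 := by rw [hQ', s1, one_mul]
  · change P * (g.1.1 * h.1.1) * Q = P * g.1.1 * Q * (P * h.1.1 * Q)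
    simp only [mul_assoc]
    rw [← mul_assoc Q P, hQ, one_mul]
  · have := (hsu _).1 g.2
    calc s (Q * g.1.1 * P) * J * (Q * g.1.1 * P) = s P * (s g.1.1 * (s (P * Q) * (P * Q)) * g.1.1) * P := by
          rw [← hPP]; simp only [sm, mul_assoc]
      _ = J := by rw [hQ', s1, one_mul, mul_one, this, mul_one, hPP]
  · change P * (Q * g.1.1 * P) * Q = g.1.1
    simp only [mul_assoc]
    rw [hQ', mul_one, ← mul_assoc, hQ', one_mul]

end CfsgLib.Pronorm
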