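import Mathlib
import Cfsg.Agent.Lib.Pronorm.Mon
import Cfsg.Agent.Lib.Pronorm.SL2
import Cfsg.Agent.Lib.PStab.GL2
import Cfsg.Agent.Lib.Syl2EA.GL
import Cfsg.Agent.Lib.SymSyl.Two
import Cfsg.Agent.Lib.Unitary.SU2

/-!
Sylow 2-subgroups of `SL_n(q)` and `SU_n(q)`, `q` odd, `n = 2 ^ w ≥ 4`, are self-normalising.
-/

set_option autoImplicit false

namespace CfsgLib.Pronorm

open Subgroup Equiv Module Matrix MatrixGroups Cfsg CfsgLib.SolvStruct CfsgLib.PStab CfsgLib.LAE
  CfsgLib.Syl2EA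

universe u

variable {F : Type u} [Field F]

theorem mem_center_gl2 {g : GL (Fin 2) F} :
    g ∈ center (GL (Fin 2) F) ↔ g.1 0 1 = 0 ∧ g.1 1 0 = 0 ∧ g.1 0 0 = g.1 1 1 := by
  rw [GeneralLinearGroup.mem_center_iff_val_mem_range_scalar]
  refine ⟨fun ⟨c, hc⟩ => by simp [← hc], fun h => ⟨g.1 0 0, ?_⟩⟩
  ext i j
  fin_cases i <;> fin_cases j <;> simp [h.1, h.2.1, h.2.2]

theorem commute_gl2 {g a b : GL (Fin 2) F} (hg : g ∉ center (GL (Fin 2) F)) (ha : Commute a g)
    (hb : Commute b g) : Commute a b :=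
  Units.ext (mat2_comm_of_comm (fun h => hg (mem_center_gl2.2 h)) (congrArg Units.val ha)
    (congrArg Units.val hb))

theorem trace_conj_gl (a g : GL (Fin 2) F) : (a * g * a⁻¹).1.trace = g.1.trace :=
  mat2_trace_conj _ _ _ a.inv_mul

/-- an element of odd order normalising a large 2-subgroup of `GL₂(F)` is scalar -/
theorem mem_center_of_normalizes (h2 : (2 : F) ≠ 0) {R : Subgroup (GL (Fin 2) F)} [Finite R]
    (hR : IsPGroup 2 R) {x y a : GL (Fin 2) F} (hx : x ∈ R) (hy : y ∈ R) (hxy : ¬ Commute x y)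
    (ha : a ∈ R) (ha2 : a * a ∉ center (GL (Fin 2) F)) {h : GL (Fin 2) F}
    (hh : ∀ r ∈ R, h * r * h⁻¹ ∈ R) {m : ℕ} (hm : Odd m) (hhm : h ^ m = 1) :
    h ∈ center (GL (Fin 2) F) := by
  set f := QuotientGroup.mk' (center (GL (Fin 2) F))
  have hf : ∀ g, f g = 1 ↔ g ∈ center (GL (Fin 2) F) := fun g => QuotientGroup.eq_one_iff g
  have : Finite (R.map f) := Finite.of_surjective _ (f.subgroupMap_surjective R)
  have : Nontrivial (R.map f) := ⟨⟨⟨f x, x, hx, rfl⟩, 1, fun e => hxy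
    (mem_center_iff.1 ((hf x).1 (congrArg Subtype.val e)) y).symm⟩⟩
  have := (hR.map f).center_nontrivial
  obtain ⟨⟨⟨_, z, hz, rfl⟩, hzc⟩, hz1⟩ := exists_ne (1 : center (R.map f))
  have hz2 : z ∉ center (GL (Fin 2) F) := fun e => hz1 (Subtype.ext (Subtype.ext ((hf z).2 e)))
  have h3 : ∀ r ∈ R, Commute r z ∨ r * z * r⁻¹ = -z := by
    intro r hr
    have e : r * z * r⁻¹ * z⁻¹ ∈ center (GL (Fin 2) F) := (hf _).1 (by
      rw [map_mul, map_mul, map_mul, show f r * f z = f z * f r from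
        congrArg Subtype.val (mem_center_iff.1 hzc ⟨f r, r, hr, rfl⟩)]
      simp)
    obtain ⟨c, hc⟩ := GeneralLinearGroup.mem_center_iff_val_mem_range_scalar.1 e
    have hd : c * c = 1 := by
      have := congrArg det hc
      rw [← GeneralLinearGroup.val_det_apply] at this
      simpa [mul_right_comm, sq] using this
    have hc' : (r * z * r⁻¹).1 = c • z.1 := by
      rw [← inv_mul_cancel_right (r * z * r⁻¹) z, Units.val_mul, ← hc, scalar_apply, ← smul_eq_diagonal_mul]
    rcases mul_self_eq_one_iff.1 hd with rfl | rfl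
    · exact Or.inl (mul_inv_eq_iff_eq_mul.1 (Units.ext (hc'.trans (one_smul _ _))))
    · exact Or.inr (Units.ext (hc'.trans (neg_one_smul _ _)))
  have h4 : ∀ r z : GL (Fin 2) F, r * z * r⁻¹ = -z → z.1.trace = 0 := fun r z e => by
    have := trace_conj_gl r z
    rw [e, Units.val_neg, trace_neg, neg_eq_iff_add_eq_zero, ← two_mul] at this
    exact (mul_eq_zero.1 this).resolve_left h2
  have h5 : ∀ r ∈ R, r.1.trace ≠ 0 → Commute r z := fun r hr ht => (h3 r hr).resolve_right fun e =>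
    ht (h4 z⁻¹ r (by rw [mul_inv_eq_iff_eq_mul] at e; rw [mul_assoc, inv_inv, e]; simp))
  obtain ⟨r, hr, hrz⟩ : ∃ r ∈ R, r * z * r⁻¹ = -z := by
    by_contra hc
    push Not at hc
    exact hxy (commute_gl2 hz2 ((h3 x hx).resolve_right (hc x hx)) ((h3 y hy).resolve_right (hc y hy)))
  have hz0 := h4 r z hrz
  have ha1 : a ∉ center (GL (Fin 2) F) := fun e => ha2 (mul_mem e e)
  have hat : a.1.trace ≠ 0 := fun e => ha2 (mem_center_gl2.2 (by
    rw [Units.val_mul, mat2_sq, e]; simp))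
  have haz := h5 a ha hat
  have hbz := h5 _ (hh a ha) (by rwa [trace_conj_gl])
  have h6 : Commute (h * z * h⁻¹) z := commute_gl2 (g := h * a * h⁻¹)
    (fun e => ha1 (by simpa [mul_assoc] using (inferInstance : (center _).Normal).conj_mem _ e h⁻¹))
    (by simpa using haz.symm.map (MulAut.conj h)) hbz.symm
  have h7 : h * z * h⁻¹ = z ∨ h * z * h⁻¹ = -z := by
    obtain ⟨β, b1, b2, b3⟩ := mat2_prop_of_comm (fun e => hz2 (mem_center_gl2.2 e)) (congrArg Units.val h6)
    have t1 := (trace_conj_gl h z).trans hz0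
    have d1 : (h * z * h⁻¹).1.det = z.1.det := by
      rw [← GeneralLinearGroup.val_det_apply, ← GeneralLinearGroup.val_det_apply]; simp
    have e : (h * z * h⁻¹).1 = β • z.1 := by
      rw [trace_fin_two] at t1 hz0
      ext i j
      fin_cases i <;> fin_cases j
      · exact mul_left_cancel₀ h2 (by
          change 2 * (h * z * h⁻¹).1 0 0 = 2 * (β * z.1 0 0); linear_combination t1 + b3 - β * hz0)
      · exact b1
      · exact b2
      · exact mul_left_cancel₀ h2 (by
          change 2 * (h * z * h⁻¹).1 1 1 = 2 * (β * z.1 1 1); linear_combination t1 - b3 - β * hz0)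
    rw [e, det_smul, Fintype.card_fin, mul_left_eq_self₀, sq] at d1
    rcases mul_self_eq_one_iff.1 (d1.resolve_right (GeneralLinearGroup.det_ne_zero z)) with rfl | rfl
    · exact Or.inl (Units.ext (e.trans (one_smul _ _)))
    · exact Or.inr (Units.ext (e.trans (neg_one_smul _ _)))
  have h8 : Commute h z := by
    refine conj_eq_of_sq hm (hhm ▸ Commute.one_left z) ?_
    change h ^ 2 * z = z * h ^ 2
    rw [← mul_inv_eq_iff_eq_mul, show h ^ 2 * z * (h ^ 2)⁻¹ = h * (h * z * h⁻¹) * h⁻¹ by rw [sq]; group]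
    rcases h7 with e | e
    · rw [e, e]
    · rw [e, mul_neg, neg_mul, e, neg_neg]
  have h9 : Commute (r * h * r⁻¹) h := commute_gl2 hz2 (by
    have := h8.map (MulAut.conj r)
    rw [MulAut.conj_apply, MulAut.conj_apply, hrz] at this
    exact Commute.neg_right_iff.1 this) h8
  have h10 : r * h * r⁻¹ * h⁻¹ = 1 := eq_one_of_odd hR (by
    simpa [mul_assoc] using mul_mem hr (hh _ (inv_mem hr))) hm (by
      rw [h9.inv_right.mul_pow, conj_pow, inv_pow, hhm]; simp)
  by_contra hc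
  have e := commute_gl2 hc (show Commute r h from mul_inv_eq_iff_eq_mul.1 (mul_inv_eq_one.1 h10)) h8.symm
  rw [mul_inv_eq_iff_eq_mul.2 e] at hrz
  have e2 := congrArg Units.val hrz
  rw [Units.val_neg, eq_neg_iff_add_eq_zero, ← two_smul F] at e2
  exact z.ne_zero ((smul_eq_zero.1 e2).resolve_left h2)

/-- coordinates adapted to the decomposition into planes -/
def blkE (w : ℕ) (F : Type u) [Field F] : (Fin (2 ^ (w + 1)) → F) ≃ₗ[F] (Fin (2 ^ w) → Fin 2 → F) :=
  (LinearEquiv.funCongrLeft F F (finProdFinEquiv.trans (finCongr (pow_succ 2 w).symm))).trans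
    (LinearEquiv.curry F F (Fin (2 ^ w)) (Fin 2))

theorem exists_sylow_gl2 [Finite F] (h2 : (2 : F) ≠ 0) {Γ₂ : Subgroup (GL (Fin 2) F)} {s t c : F}
    (hst : s * s + t * t = -1) (hc : c ≠ 0)
    (hΓ₂ : ∀ g : GL (Fin 2) F, g.1 = !![0, -1; 1, 0] ∨ g.1 = !![s, t; t, -s] ∨ g.1 = !![c, -c; c, c] → g ∈ Γ₂) :
    ∃ R x y, IsSylowIn 2 R Γ₂ ∧ x ∈ R ∧ y ∈ R ∧ GeneralLinearGroup.det x = 1 ∧ GeneralLinearGroup.det y = 1 ∧
      x * x = -1 ∧ y * y = -1 ∧ x * y = -(y * x) ∧ ∀ (h : GL (Fin 2) F) (m : ℕ), (∀ r ∈ R, h * r * h⁻¹ ∈ R) →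
        Odd m → h ^ m = 1 → h ∈ center (GL (Fin 2) F) := by
  have dx : (!![0, -1; 1, 0] : Matrix (Fin 2) (Fin 2) F).det = 1 := by simp
  have dy : (!![s, t; t, -s] : Matrix (Fin 2) (Fin 2) F).det = 1 := by
    rw [det_fin_two_of]; linear_combination -hst
  set x := GeneralLinearGroup.mkOfDetNeZero _ (dx.trans_ne one_ne_zero)
  set y := GeneralLinearGroup.mkOfDetNeZero _ (dy.trans_ne one_ne_zero)
  set b := GeneralLinearGroup.mkOfDetNeZero (!![c, -c; c, c] : Matrix _ _ F) (by simp [← two_mul, h2, hc])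
  have ex : x.1 = !![0, -1; 1, 0] := rfl
  have ey : y.1 = !![s, t; t, -s] := rfl
  have eb : b.1 = !![c, -c; c, c] := rfl
  have xx : x * x = -1 := Units.ext (by
    rw [Units.val_mul, ex]; ext i j; fin_cases i <;> fin_cases j <;> simp)
  have yy : y * y = -1 := Units.ext (by
    rw [Units.val_mul, ey]; ext i j; fin_cases i <;> fin_cases j <;> simp [hst, mul_comm, add_comm (t * t)])
  have xy : x * y = -(y * x) := Units.ext (by
    rw [Units.val_neg, Units.val_mul, Units.val_mul, ex, ey]; ext i j; fin_cases i <;> fin_cases j <;> simp)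
  have hxy : ¬ Commute x y := fun e => by
    have e2 := congrArg Units.val (e.symm.eq.trans xy)
    rw [Units.val_neg, eq_neg_iff_add_eq_zero, ← two_smul F] at e2
    exact (y * x).ne_zero ((smul_eq_zero.1 e2).resolve_left h2)
  have hp : ∀ g : GL (Fin 2) F, ∀ k, g ^ 2 ^ k = 1 → IsPGroup 2 (zpowers g) := fun g k e =>
    fun ⟨_, n, rfl⟩ => ⟨k, Subtype.ext (by
      change (g ^ n) ^ 2 ^ k = 1
      rw [← zpow_natCast, zpow_comm, zpow_natCast, e, _root_.one_zpow])⟩
  have h4 : ∀ g : GL (Fin 2) F, g * g = -1 → g ^ 2 ^ 2 = 1 := fun g e => by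
    rw [sq 2, pow_mul, sq g, e]; simp
  have hQ : IsPGroup 2 (zpowers x ⊔ zpowers y : Subgroup _) :=
    (hp x 2 (h4 x xx)).to_sup_of_normal_left' (hp y 2 (h4 y yy)) (zpowers_le.2 (mem_normalizer_fintype (by
      rintro _ ⟨n, rfl⟩
      rw [← conj_zpow, show y * x * y⁻¹ = x * x * x by
        rw [xx, ← neg_neg (y * x), ← xy, neg_mul, mul_inv_cancel_right, neg_one_mul]]
      exact zpow_mem (mul_mem (mul_mem (mem_zpowers x) (mem_zpowers x)) (mem_zpowers x)) n)))
  obtain ⟨R, hR, hQR⟩ := exists_isSylowIn_ge hQ (sup_le (zpowers_le.2 (hΓ₂ x (Or.inl ex)))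
    (zpowers_le.2 (hΓ₂ y (Or.inr (Or.inl ey)))))
  have hx := hQR (mem_sup_left (mem_zpowers x))
  have hy := hQR (mem_sup_right (mem_zpowers y))
  refine ⟨R, x, y, hR, hx, hy, Units.ext dx, Units.ext dy, xx, yy, xy, fun h m hh hm hhm => ?_⟩
  obtain ⟨k, n, hn, e⟩ := Nat.exists_eq_two_pow_mul_odd (orderOf_pos b).ne'
  obtain ⟨g, -, hg⟩ := hR.exists_conj_le (hp (b ^ n) k (by
    rw [← pow_mul, mul_comm, ← e, pow_orderOf_eq_one])) (zpowers_le.2 (pow_mem (hΓ₂ b (Or.inr (Or.inr eb))) n))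
  refine mem_center_of_normalizes h2 hR.isPGroup hx hy hxy (a := g * b ^ n * g⁻¹) (hg ⟨_, mem_zpowers _, rfl⟩)
    (fun e => hxy ?_) hh hm hhm
  have e1 : (b * b) ^ n ∈ center (GL (Fin 2) F) := by
    simpa [mul_assoc, ← (Commute.refl b).mul_pow] using
      (inferInstance : (center _).Normal).conj_mem _ e g⁻¹
  have e2 : (b * b).1 = (2 * c * c) • x.1 := by
    rw [Units.val_mul, eb, ex]; ext i j; fin_cases i <;> fin_cases j <;> simp <;> ring
  have e3 : Commute (b * b) y := conj_eq_of_sq hn (mem_center_iff.1 e1 y).symm (Units.ext (by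
    rw [Units.val_mul, Units.val_mul, sq, Units.val_mul, e2, smul_mul_smul_comm, ← Units.val_mul, xx]
    simp))
  have e4 := congrArg Units.val e3.eq
  rw [Units.val_mul, Units.val_mul y, e2, smul_mul_assoc, mul_smul_comm] at e4
  exact Units.ext (smul_right_injective _ (by simp [h2, hc]) e4)

theorem sylPron_of_blocks [Finite F] (h2 : (2 : F) ≠ 0) {w : ℕ} (hw : 1 ≤ w)
    {Γ : Subgroup (GL (Fin (2 ^ (w + 1))) F)} {Γ₂ : Subgroup (GL (Fin 2) F)} {s t c : F}
    (hst : s * s + t * t = -1) (hc : c ≠ 0)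
    (hΓ₂ : ∀ g : GL (Fin 2) F, g.1 = !![0, -1; 1, 0] ∨ g.1 = !![s, t; t, -s] ∨ g.1 = !![c, -c; c, c] → g ∈ Γ₂)
    (hΓ : ∀ g (r : Fin (2 ^ w) → GL (Fin 2) F) (τ : Perm (Fin (2 ^ w))), (∀ i, r i ∈ Γ₂) →
      (∀ v i, blkE w F (g.1 *ᵥ v) (τ i) = (r i).1 *ᵥ blkE w F v i) → g ∈ Γ)
    (hv : (Nat.card Γ).factorization 2 ≤
      2 ^ w * (Nat.card Γ₂).factorization 2 + (2 ^ w).factorial.factorization 2)
    {K : Type u} [Group K] (f : K →* GL (Fin (2 ^ (w + 1))) F) (hf : Function.Injective f)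
    (hr : f.range = Γ ⊓ GeneralLinearGroup.det.ker) : SylPron 2 K := by
  classical
  obtain ⟨R, x, y, hR, hx, hy, dx, dy, xx, yy, xy, hn⟩ := exists_sylow_gl2 h2 hst hc hΓ₂
  obtain ⟨T⟩ : Nonempty (Sylow 2 (Perm (Fin (2 ^ w)))) := inferInstance
  have : Finite K := Finite.of_injective f hf
  set ε := Forms.glEquiv.trans (linCongr (blkE w F))
  set R' := R.map (Forms.glEquiv (ι := Fin 2) (F := F)).toMonoidHom
  have hR' : IsPGroup 2 R' := hR.isPGroup.map _
  have hε : ∀ g v, ε g (blkE w F v) = blkE w F (g.1 *ᵥ v) := fun g v => by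
    simp [ε, linCongr_apply, Forms.glEquiv_apply]
  have hd : ∀ g, LinearEquiv.det (ε g) = GeneralLinearGroup.det g := fun g =>
    (det_linCongr _ _).trans (det_glEquiv g)
  have hM : Nat.card ((Mon R' T).comap ε.toMonoidHom) = Nat.card R ^ 2 ^ w * Nat.card T := by
    rw [← card_map_of_injective (f := ε.toMonoidHom) ε.injective, map_comap_eq_self_of_surjective ε.surjective,
      card_Mon, show Nat.card R' = Nat.card R from card_map_of_injective Forms.glEquiv.injective]
    simp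
  have hS : IsSylowIn 2 ((Mon R' T).comap ε.toMonoidHom) Γ := by
    refine isSylowIn_of_factorization_le (IsPGroup.of_card (n := _) (by
      rw [hM, hR.card_eq_pow_factorization, T.card_eq_multiplicity, ← pow_mul, ← pow_add])) ?_ ?_
    · rintro g ⟨r, τ, h1, -, h3⟩
      choose r' h4 h5 using h1
      refine hΓ g r' τ (fun i => hR.le (h4 i)) fun v i => ?_
      rw [← hε]
      exact (h3 _ i).trans (by rw [← h5]; rfl)
    · rw [hM, hR.card_eq_pow_factorization, T.card_eq_multiplicity, ← pow_mul, ← pow_add,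
        Nat.Prime.factorization_pow Nat.prime_two, Finsupp.single_eq_same, Nat.card_perm, mul_comm]
      simpa using hv
  have hS2 := hS.inf_of_normal (N := Γ ⊓ GeneralLinearGroup.det.ker) inf_le_left fun g hg =>
    mem_normalizer_fintype fun a ha => ⟨Γ.mul_mem (Γ.mul_mem hg ha.1) (Γ.inv_mem hg), by
      simpa [mul_right_comm] using ha.2⟩
  obtain ⟨P, hP⟩ := (IsSylowIn.of_map_injective (S := comap f _) (H := ⊤) hf (by
    rwa [map_comap_eq_self (inf_le_right.trans hr.ge), ← MonoidHom.range_eq_map, hr])).exists_sylow_top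
  refine sylPron_of_self P (normalizer_le_of_forall P fun g hg h1 h3 => ?_)
  have hm := h1.odd_of_ne_two h3
  have : Nontrivial (Fin (2 ^ w)) := Fin.nontrivial_iff_two_le.2 (Nat.le_self_pow (by omega) 2)
  have e1 : ∀ a : GL (Fin 2) F, ∀ u, Forms.glEquiv (-a) u = -Forms.glEquiv a u := fun a u => by
    simp [Forms.glEquiv_apply, neg_mulVec]
  obtain ⟨d, hd'⟩ := exists_smul_of_normalizes (R := R') (T := T) h2 (by simp) det_mon_one
    (SymSyl.normalizer_le T) T.isPGroup' (sylow_transitive (j := w) (by simp) T) hR' (mem_map_of_mem _ hx)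
    (mem_map_of_mem _ hy) ((det_glEquiv x).trans dx) ((det_glEquiv y).trans dy)
    (fun u => by rw [← LinearEquiv.mul_apply, ← map_mul, xx]; exact (e1 1 u).trans (by simp))
    (fun u => by rw [← LinearEquiv.mul_apply, ← map_mul, yy]; exact (e1 1 u).trans (by simp))
    (fun u => by rw [← LinearEquiv.mul_apply, ← LinearEquiv.mul_apply, ← map_mul, ← map_mul, xy]; exact e1 _ u)
    hm (fun h h4 h5 => by
      obtain ⟨h, rfl⟩ := Forms.glEquiv.surjective h
      obtain ⟨d, hd⟩ := GeneralLinearGroup.mem_center_iff_val_mem_range_scalar.1 (hn h _ (fun r hr => by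
        obtain ⟨r', h6, h7⟩ := h4 _ (mem_map_of_mem _ hr)
        exact (show r' = h * r * h⁻¹ from Forms.glEquiv.injective (h7.trans (by simp))) ▸ h6) hm
        (Forms.glEquiv.injective (by simpa using h5)))
      exact ⟨d, fun u => by simp [Forms.glEquiv_apply, ← hd]⟩)
    (g := ε (f g)) (fun a h4 h5 => by
      obtain ⟨a, rfl⟩ := ε.surjective a
      obtain ⟨a, rfl⟩ := hr.ge (show a ∈ Γ ⊓ _ from ⟨hS.le h4, (hd a).symm.trans h5⟩)
      have h6 := (mem_normalizer_iff.1 hg a).1 (show a ∈ (P : Subgroup K) from hP ▸ ⟨h4, hr.le ⟨a, rfl⟩⟩)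
      change _ ∈ (P : Subgroup K) at h6
      rw [hP] at h6
      simpa using h6.1)
    (by rw [← map_pow, ← map_pow, pow_orderOf_eq_one, map_one, map_one])
  have h4 : (f g).1 = scalar _ d := by
    refine (toLin' (R := F)).injective (LinearMap.ext fun v => (blkE w F).injective ?_)
    rw [toLin'_apply, ← hε, hd', ← map_smul]
    simp
  have h5 : d ^ 2 ^ (w + 1) = 1 := by
    have := congrArg Units.val (hr.le ⟨g, rfl⟩).2
    simpa [h4] using this
  have h6 : f g ^ 2 ^ (w + 1) = 1 := Units.ext (by rw [Units.val_pow_eq_pow_val, h4, ← map_pow, h5]; simp)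
  exact h3 ((Nat.prime_dvd_prime_iff_eq h1 Nat.prime_two).1 (h1.dvd_of_dvd_pow
    (orderOf_dvd_of_pow_eq_one (hf (by rw [map_pow, h6, map_one])))))

theorem sylPron_sl_odd [Fintype F] (hF : Odd (Fintype.card F)) {w : ℕ} (hw : 1 ≤ w) :
    SylPron 2 SL(2 ^ (w + 1), F) := by
  obtain ⟨s, t, hst⟩ := Orth.exists_sq_add_sq_eq (F := F) one_ne_zero one_ne_zero (-1)
  refine sylPron_of_blocks (Orth.two_ne_zero_of_odd_card hF) hw (Γ := ⊤) (Γ₂ := ⊤) (s := s) (t := t)
    (by simpa using hst) one_ne_zero (fun _ _ => trivial) (fun _ _ _ _ _ => trivial) ?_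
    SpecialLinearGroup.toGL SpecialLinearGroup.toGL_injective (by rw [Classical.sl_range_toGL, top_inf_eq])
  rw [card_top, card_top, val_gl hF, val_gl2 hF, pow_succ', val_prod_gl hF Fintype.one_lt_card]

theorem val_prod_gu {q : ℕ} (hq : Odd q) (h1 : 1 < q) (k : ℕ) :
    (∏ i ∈ Finset.range (2 * k), (if Even i then q ^ (i + 1) + 1 else q ^ (i + 1) - 1)).factorization 2 =
      k * ((q ^ 2 - 1).factorization 2 + (q + 1).factorization 2) + k.factorial.factorization 2 := by
  have hn : ∀ i, (if Even i then q ^ (i + 1) + 1 else q ^ (i + 1) - 1) ≠ 0 := fun i => by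
    split_ifs; exacts [Nat.succ_ne_zero _, pow_sub_one_ne h1 i]
  induction k with
  | zero => simp
  | succ k ih =>
    have e1 : (q ^ (2 * k + 1) + 1).factorization 2 = (q + 1).factorization 2 := by
      have e : (q ^ (2 * k + 1) - 1) * (q ^ (2 * k + 1) + 1) = q ^ (2 * (2 * k + 1)) - 1 := by
        rw [mul_comm, ← Nat.sq_sub_sq, ← pow_mul, mul_comm, one_pow]
      have e' : (q - 1) * (q + 1) = q ^ 2 - 1 := by rw [mul_comm, ← Nat.sq_sub_sq, one_pow]
      have h3 := val_even hq h1 (2 * k)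
      rw [← e, ← e', Nat.factorization_mul (pow_sub_one_ne h1 _) (Nat.add_one_ne_zero _),
        Nat.factorization_mul (by omega) (Nat.add_one_ne_zero _), Finsupp.add_apply, Finsupp.add_apply,
        val_odd hq h1, Nat.factorization_eq_zero_of_not_dvd (n := 2 * k + 1) (by omega)] at h3
      omega
    rw [mul_add, mul_one, Finset.prod_range_succ, Finset.prod_range_succ, Nat.factorization_mul
      (mul_ne_zero (Finset.prod_ne_zero_iff.2 fun i _ => hn i) (hn _)) (hn _), Nat.factorization_mul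
      (Finset.prod_ne_zero_iff.2 fun i _ => hn i) (hn _), Finsupp.add_apply, Finsupp.add_apply, ih,
      if_pos (even_two_mul k), if_neg (by simp [parity_simps]), e1, Nat.factorial_succ,
      Nat.factorization_mul (Nat.succ_ne_zero _) (Nat.factorial_ne_zero k), Finsupp.add_apply,
      show 2 * k + 1 + 1 = 2 * (k + 1) by ring, val_even hq h1]
    ring

theorem sylPron_su_odd [Fintype F] {q : ℕ} (hF : Fintype.card F = q ^ 2) (hq : Odd q) {w : ℕ} (hw : 1 ≤ w) :
    SylPron 2 (SU (2 ^ (w + 1)) F q) := by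
  have h2 := Orth.two_ne_zero_of_odd_card (F := F) (hF ▸ hq.pow)
  have h1 : 1 < q := Unitary.two_le_q hF
  set σ := Unitary.conj hF
  have hσ : ∀ a, σ a = a ^ q := fun _ => rfl
  obtain ⟨a, ha0, ha⟩ := Unitary.exists_trace_zero hF
  rw [← hσ, add_comm, add_eq_zero_iff_eq_neg] at ha
  have ha2 : (⟨a * a, show σ (a * a) = a * a by rw [map_mul, ha, neg_mul_neg]⟩ : Unitary.fixedSubfield hF) ≠ 0 :=
    fun e => mul_ne_zero ha0 ha0 (congrArg Subtype.val e)
  obtain ⟨s, t, hst⟩ := Orth.exists_sq_add_sq_eq ha2 ha2 (-1)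
  have hst' : a * s * (a * s) + a * t * (a * t) = -1 := by
    have : (s : F) * s * (a * a) + t * t * (a * a) = -1 := congrArg Subtype.val hst
    linear_combination this
  have hs : σ s = s := s.2
  have ht : σ t = t := t.2
  obtain ⟨c, hc⟩ := Unitary.exists_norm_eq hF (μ := 2⁻¹) (by rw [← hσ, map_inv₀, map_ofNat])
  rw [pow_succ, ← hσ] at hc
  have hc2 : 2 * (c * σ c) = 1 := by rw [mul_comm c, hc, mul_inv_cancel₀ h2]
  have hb : ∀ u v, hermForm _ F q u v = ∑ i, hermForm 2 F q (blkE w F u i) (blkE w F v i) := fun u v => by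
    rw [Unitary.herm_def, ← (finProdFinEquiv.trans (finCongr (pow_succ 2 w).symm)).sum_comp,
      Fintype.sum_prod_type]
    rfl
  refine sylPron_of_blocks h2 hw (Γ := GU _ F q) (Γ₂ := GU 2 F q) hst' (c := c)
    (by rintro rfl; simp at hc2) (fun g hg => (Unitary.mem_GU_iff hF g).2 ?_) (fun g r τ hr hg u v => ?_) ?_
    (SpecialLinearGroup.toGL.comp (SU _ F q).subtype)
    (SpecialLinearGroup.toGL_injective.comp Subtype.val_injective) ?_
  · rcases hg with e | e | e <;> rw [e] <;> ext i j <;> fin_cases i <;> fin_cases j <;>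
      simp [mul_apply, Fin.sum_univ_two, ha, hs, ht, σ]
    all_goals first | linear_combination -hst' | linear_combination hc2 | ring
  · change hermForm _ F q (g.1 *ᵥ u) (g.1 *ᵥ v) = hermForm _ F q u v
    rw [hb, hb, ← Equiv.sum_comp τ]
    exact Finset.sum_congr rfl fun i _ => by rw [hg, hg]; exact hr i _ _
  · have hn : ∀ n, ∏ i ∈ Finset.range n, (if Even i then q ^ (i + 1) + 1 else q ^ (i + 1) - 1) ≠ 0 :=
      fun n => Finset.prod_ne_zero_iff.2 fun i _ => by
        split_ifs; exacts [Nat.succ_ne_zero _, pow_sub_one_ne h1 i]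
    rw [Unitary.card_GU hF, Unitary.card_GU hF, Nat.factorization_mul (by positivity) (hn _),
      Nat.factorization_mul (by positivity) (hn _), Finsupp.add_apply, Finsupp.add_apply, val_pow_odd hq,
      val_pow_odd hq, pow_succ', val_prod_gu hq h1, val_prod_gu hq h1 1]
    simp
  · ext g
    exact ⟨fun ⟨a, e⟩ => e ▸ ⟨a.2, Units.ext a.1.2⟩, fun h =>
      ⟨Unitary.mkSU _ (congrArg Units.val h.2) h.1, Units.ext rfl⟩⟩

end CfsgLib.Pronorm
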